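import Cfsg.Agent.BpCl.Rows
import Cfsg.Agent.H955.QSpace
import Cfsg.Agent.LieClassical.OrthFinite

/-!
# S3691: Siegel elements from the action on `P^⊥`, `P` nondegenerate of dimension at most two (T3, `lift_plane`)
-/

set_option autoImplicit false

namespace Cfsg.Agent.H111.Rg

open Module QuadraticMap Cfsg Cfsg.Agent.LieClassical.OrthCore Cfsg.Agent.LieClassical.OrthTrans
  Cfsg.Agent.H955
open Cfsg.Agent.LieClassical.OrthFinite (good_of_finite)

open scoped commutatorElement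

universe u v

variable {F : Type u} [Field F] {V : Type v} [AddCommGroup V] [Module F V]
  {Q : QuadraticForm F V} {A : Subgroup (V ≃ₗ[F] V)}

/-- the restriction of a group to an invariant subspace -/
def rstr {P : Submodule F V} (hAP : ∀ a ∈ A, ∀ x ∈ P, a x ∈ P) : A →* (P ≃ₗ[F] P) where
  toFun a :=
    { toFun := fun x => ⟨(a : V ≃ₗ[F] V) x, hAP a a.2 x x.2⟩
      invFun := fun x => ⟨((a⁻¹ : A) : V ≃ₗ[F] V) x, hAP _ (a⁻¹ : A).2 x x.2⟩
      map_add' := fun x y => Subtype.ext (map_add (a : V ≃ₗ[F] V) (x : V) (y : V))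
      map_smul' := fun c x => Subtype.ext (map_smul (a : V ≃ₗ[F] V) c (x : V))
      left_inv := fun x => Subtype.ext ((a : V ≃ₗ[F] V).symm_apply_apply (x : V))
      right_inv := fun x => Subtype.ext ((a : V ≃ₗ[F] V).apply_symm_apply (x : V)) }
  map_one' := by
    ext x
    rfl
  map_mul' a b := by
    ext x
    rfl

theorem rstr_apply {P : Submodule F V} (hAP : ∀ a ∈ A, ∀ x ∈ P, a x ∈ P) (a : A) (x : P) :
    (rstr hAP a x : V) = (a : V ≃ₗ[F] V) x := rfl

/-- The orthogonal group of a nondegenerate space of dimension at most two is solvable. -/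
theorem solvable_O (hQ : Nondeg Q) [FiniteDimensional F V] (hd : finrank F V ≤ 2) : Group.IsSolvable ↥(O Q) := by
  rcases Nat.lt_or_ge (finrank F V) 2 with h | h
  · -- dimension at most one
    have hsc : ∀ g : V ≃ₗ[F] V, ∃ c : F, ∀ v, g v = c • v := by
      intro g
      rcases Nat.eq_zero_or_pos (finrank F V) with h0 | h0
      · have := finrank_zero_iff.1 h0
        exact ⟨1, fun v => Subsingleton.elim _ _⟩
      · obtain ⟨b, hb0, hb⟩ := finrank_eq_one_iff'.1 (by omega : finrank F V = 1)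
        obtain ⟨c, hc⟩ := hb (g b)
        refine ⟨c, fun v => ?_⟩
        obtain ⟨d, rfl⟩ := hb v
        rw [map_smul, ← hc, smul_smul, smul_smul, mul_comm]
    have hcomm : ∀ a b : ↥(O Q), a * b = b * a := by
      intro a b
      apply Subtype.ext
      ext v
      obtain ⟨c, hc⟩ := hsc a.1
      obtain ⟨d, hd⟩ := hsc b.1
      show a.1 (b.1 v) = b.1 (a.1 v)
      rw [hd, hc, hc, hd, smul_smul, smul_smul, mul_comm]
    exact Group.isSolvable_of_comm hcomm
  · exact BpCl.Plane.isSolvable hQ (by omega)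

/-- (T3) Siegel elements from the action on `P^⊥`, `P` nondegenerate of dimension at most two -/
theorem lift_plane [Fintype F] [FiniteDimensional F V] (hQ : Nondeg Q) {P : Submodule F V} (hP : Nondeg (res Q P))
    (hP2 : finrank F P ≤ 2)
    (hn : 7 ≤ finrank F V) (hA : A ≤ O Q) (hAP : ∀ a ∈ A, ∀ x ∈ P, a x ∈ P)
    (hE : ∀ y ∈ E (res Q (perp Q P)), ∃ a ∈ A, ∀ w : perp Q P, a w = y w)
    {x w : V} (hx : Q x = 0) (hw : polar Q x w = 0) (hxP : x ∈ perp Q P) (hwP : w ∈ perp Q P) :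
    siegel Q x w hx hw ∈ A := by
  have hG : Good (res Q (perp Q P)) := by
    refine good_of_finite (nondeg_perp hQ hP) ?_
    have := finrank_add_perp hQ P
    omega
  -- the action on `P`
  let ρ : A →* ↥(O (res Q P)) := (rstr hAP).codRestrict (O (res Q P)) (fun a => by
    intro x
    rw [res_apply, res_apply, rstr_apply]
    exact hA a.2 x)
  obtain ⟨n, hn0⟩ := (solvable_O hP hP2).solvable
  have h1 : ∀ a ∈ derivedSeries A n, ∀ x ∈ P, (a : V ≃ₗ[F] V) x = x := by
    intro a ha x hx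
    have h2 : ρ a ∈ derivedSeries ↥(O (res Q P)) n := map_derivedSeries_le_derivedSeries ρ n ⟨a, ha, rfl⟩
    rw [hn0, Subgroup.mem_bot] at h2
    have h3 : rstr hAP a = 1 := congrArg Subtype.val h2
    have h4 := congrArg Subtype.val (LinearEquiv.congr_fun h3 (⟨x, hx⟩ : P))
    exact h4
  -- lifts in the derived series
  have h2 : ∀ k, ∀ y ∈ E (res Q (perp Q P)), ∃ a ∈ derivedSeries A k, ∀ w : perp Q P, (a : V ≃ₗ[F] V) w = y w := by
    intro k
    induction k with
    | zero =>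
      intro y hy
      obtain ⟨a, ha, h⟩ := hE y hy
      exact ⟨⟨a, ha⟩, by rw [derivedSeries_zero]; trivial, h⟩
    | succ k ih =>
      intro y hy
      rw [← hG.E_perfect, Subgroup.commutator_def] at hy
      have hinv : ∀ (a : A) (y : perp Q P ≃ₗ[F] perp Q P), (∀ w : perp Q P, (a : V ≃ₗ[F] V) w = y w) →
          ∀ w : perp Q P, ((a⁻¹ : A) : V ≃ₗ[F] V) w = (y⁻¹ w : perp Q P) := by
        intro a y h w
        apply (a : V ≃ₗ[F] V).injective
        have e1 : (a : V ≃ₗ[F] V) (((a⁻¹ : A) : V ≃ₗ[F] V) w) = w := (a : V ≃ₗ[F] V).apply_symm_apply _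
        have e2 : y (y⁻¹ w) = w := y.apply_symm_apply w
        rw [e1, h, e2]
      induction hy using Subgroup.closure_induction with
      | mem y hy =>
        obtain ⟨y₁, hy₁, y₂, hy₂, rfl⟩ := hy
        obtain ⟨a₁, ha₁, e₁⟩ := ih y₁ hy₁
        obtain ⟨a₂, ha₂, e₂⟩ := ih y₂ hy₂
        refine ⟨⁅a₁, a₂⁆, ?_, fun w => ?_⟩
        · rw [derivedSeries_succ]
          exact Subgroup.commutator_mem_commutator ha₁ ha₂
        · rw [commutatorElement_def, commutatorElement_def]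
          show (a₁ : V ≃ₗ[F] V) ((a₂ : V ≃ₗ[F] V) (((a₁⁻¹ : A) : V ≃ₗ[F] V) (((a₂⁻¹ : A) : V ≃ₗ[F] V) w))) =
            (y₁ (y₂ (y₁⁻¹ (y₂⁻¹ w))) : perp Q P)
          rw [hinv a₂ y₂ e₂, hinv a₁ y₁ e₁, e₂, e₁]
      | one => exact ⟨1, Subgroup.one_mem _, fun w => rfl⟩
      | mul y z _ _ hy hz =>
        obtain ⟨a, ha, e⟩ := hy
        obtain ⟨b, hb, e'⟩ := hz
        refine ⟨a * b, Subgroup.mul_mem _ ha hb, fun w => ?_⟩
        show (a : V ≃ₗ[F] V) ((b : V ≃ₗ[F] V) w) = (y (z w) : perp Q P)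
        rw [e', e]
      | inv y _ hy =>
        obtain ⟨a, ha, e⟩ := hy
        exact ⟨a⁻¹, Subgroup.inv_mem _ ha, hinv a y e⟩
  have hx' : res Q (perp Q P) ⟨x, hxP⟩ = 0 := hx
  have hw' : polar (res Q (perp Q P)) ⟨x, hxP⟩ ⟨w, hwP⟩ = 0 := hw
  obtain ⟨a, ha, e⟩ := h2 n (siegel (res Q (perp Q P)) ⟨x, hxP⟩ ⟨w, hwP⟩ hx' hw') (siegel_mem_E hx' hw')
  have h3 : siegel Q x w hx hw = (a : V ≃ₗ[F] V) := by
    ext v
    obtain ⟨⟨p, u⟩, rfl⟩ := (decomp hP).surjective v
    rw [decomp_apply, map_add, map_add, h1 a ha p p.2, e u]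
    have e1 : siegel Q x w hx hw (p : V) = p := by
      rw [siegel_apply, mem_perp'.1 hxP p p.2, mem_perp'.1 hwP p p.2]
      simp
    rw [e1, siegel_apply, siegel_apply]
    rfl
  rw [h3]
  exact a.2

end Cfsg.Agent.H111.Rg
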